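import Cfsg.Agent.H621.PW.JFour
import Cfsg.Agent.H253.TwoComm.Cent
import Cfsg.Agent.TypeM.FactsLy

/-!
# Groups with involution centralizer `2.A₁₁` (S2454, helper621)

An element of order 22 with centralizer of order at most 22 is a product of six `p`-elements, `p = 2, 3, 5, 7, 11`.
-/

set_option autoImplicit false
set_option maxRecDepth 10000

namespace Cfsg.Agent.H621.PW

open Cfsg Subgroup Equiv Cfsg.Agent.H514.DP Cfsg.Agent.H773.Pw
open Cfsg.Agent.TypeM.Two Cfsg.Agent.SporRec.TwoAn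

universe u

/-! ### the permutations -/

namespace Elt

def s : Perm (Fin 11) := ⟨![1, 2, 3, 4, 5, 6, 7, 8, 9, 10, 0], ![10, 0, 1, 2, 3, 4, 5, 6, 7, 8, 9], by decide, by decide⟩
def a2 : Perm (Fin 11) := ⟨![4, 2, 7, 1, 9, 5, 0, 6, 10, 3, 8], ![6, 3, 1, 9, 0, 5, 7, 2, 10, 4, 8], by decide, by decide⟩
def b2 : Perm (Fin 11) := ⟨![3, 1, 9, 0, 5, 7, 2, 10, 4, 8, 6], ![3, 1, 6, 0, 8, 4, 10, 5, 9, 2, 7], by decide, by decide⟩
def a3 : Perm (Fin 11) := ⟨![6, 2, 3, 1, 7, 5, 8, 10, 0, 9, 4], ![8, 3, 1, 2, 10, 5, 0, 4, 6, 9, 7], by decide, by decide⟩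
def b3 : Perm (Fin 11) := ⟨![3, 1, 2, 10, 5, 0, 4, 6, 9, 7, 8], ![5, 1, 2, 0, 6, 4, 7, 9, 10, 8, 3], by decide, by decide⟩
def a5 : Perm (Fin 11) := ⟨![9, 8, 1, 6, 4, 2, 10, 5, 7, 3, 0], ![10, 2, 5, 9, 4, 7, 3, 8, 1, 0, 6], by decide, by decide⟩
def b5 : Perm (Fin 11) := ⟨![2, 5, 9, 4, 7, 3, 8, 1, 0, 6, 10], ![8, 7, 0, 5, 3, 1, 9, 4, 6, 2, 10], by decide, by decide⟩
def a7 : Perm (Fin 11) := ⟨![0, 2, 3, 4, 10, 6, 1, 7, 8, 9, 5], ![0, 6, 1, 2, 3, 10, 5, 7, 8, 9, 4], by decide, by decide⟩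
def b7 : Perm (Fin 11) := ⟨![6, 1, 2, 3, 10, 5, 7, 8, 9, 4, 0], ![10, 1, 2, 3, 9, 5, 0, 6, 7, 8, 4], by decide, by decide⟩
def c3 : Perm (Fin 11) := ⟨![1, 2, 0, 3, 4, 5, 6, 7, 8, 9, 10], ![2, 0, 1, 3, 4, 5, 6, 7, 8, 9, 10], by decide, by decide⟩
def d3 : Perm (Fin 11) := ⟨![10, 1, 0, 3, 4, 5, 6, 7, 8, 9, 2], ![2, 1, 10, 3, 4, 5, 6, 7, 8, 9, 0], by decide, by decide⟩
def c5 : Perm (Fin 11) := ⟨![1, 2, 3, 4, 0, 5, 6, 7, 8, 9, 10], ![4, 0, 1, 2, 3, 5, 6, 7, 8, 9, 10], by decide, by decide⟩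
def d5 : Perm (Fin 11) := ⟨![3, 0, 1, 6, 4, 5, 2, 7, 8, 9, 10], ![1, 2, 6, 0, 4, 5, 3, 7, 8, 9, 10], by decide, by decide⟩
def c7 : Perm (Fin 11) := ⟨![1, 2, 3, 4, 5, 6, 0, 7, 8, 9, 10], ![6, 0, 1, 2, 3, 4, 5, 7, 8, 9, 10], by decide, by decide⟩
def d7 : Perm (Fin 11) := ⟨![6, 0, 1, 2, 4, 3, 8, 7, 5, 9, 10], ![1, 2, 3, 5, 4, 8, 0, 7, 6, 9, 10], by decide, by decide⟩
def d11 : Perm (Fin 11) := ⟨![10, 0, 1, 2, 3, 4, 7, 8, 5, 6, 9], ![1, 2, 3, 4, 5, 8, 9, 6, 7, 10, 0], by decide, by decide⟩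

theorem mem_s : s ∈ alternatingGroup (Fin 11) := by rw [Perm.mem_alternatingGroup]; decide +kernel

theorem ord_s : orderOf s = 11 := by
  have : Fact (Nat.Prime 11) := ⟨by norm_num⟩
  exact orderOf_eq_prime (by decide +kernel) (by decide +kernel)

/-- what is needed of `p` -/
structure Fac (p : ℕ) : Prop where
  ex : ∃ a b : Perm (Fin 11), a ∈ alternatingGroup (Fin 11) ∧ b ∈ alternatingGroup (Fin 11) ∧ IsPE p a ∧ IsPE p b ∧
    a * b = s
  dt : p ≠ 2 → ∃ a b : Perm (Fin 11), a ∈ alternatingGroup (Fin 11) ∧ b ∈ alternatingGroup (Fin 11) ∧ IsPE p a ∧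
    IsPE p b ∧ ∃ i j k l : Fin 11, i ≠ j ∧ i ≠ k ∧ i ≠ l ∧ j ≠ k ∧ j ≠ l ∧ k ≠ l ∧ a * b = swap i j * swap k l

theorem fac2 : Fac 2 where
  ex := ⟨a2, b2, by rw [Perm.mem_alternatingGroup]; decide +kernel, by rw [Perm.mem_alternatingGroup]; decide +kernel,
    ⟨3, by decide +kernel⟩, ⟨3, by decide +kernel⟩, by decide +kernel⟩
  dt := fun h => absurd rfl h

theorem fac3 : Fac 3 where
  ex := ⟨a3, b3, by rw [Perm.mem_alternatingGroup]; decide +kernel, by rw [Perm.mem_alternatingGroup]; decide +kernel,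
    ⟨1, by decide +kernel⟩, ⟨2, by decide +kernel⟩, by decide +kernel⟩
  dt := fun _ => ⟨c3, d3, by rw [Perm.mem_alternatingGroup]; decide +kernel, by rw [Perm.mem_alternatingGroup]; decide +kernel,
    ⟨1, by decide +kernel⟩, ⟨1, by decide +kernel⟩, 0, 10, 1, 2, by decide, by decide, by decide, by decide, by decide,
    by decide, by decide +kernel⟩

theorem fac5 : Fac 5 where
  ex := ⟨a5, b5, by rw [Perm.mem_alternatingGroup]; decide +kernel, by rw [Perm.mem_alternatingGroup]; decide +kernel,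
    ⟨1, by decide +kernel⟩, ⟨1, by decide +kernel⟩, by decide +kernel⟩
  dt := fun _ => ⟨c5, d5, by rw [Perm.mem_alternatingGroup]; decide +kernel, by rw [Perm.mem_alternatingGroup]; decide +kernel,
    ⟨1, by decide +kernel⟩, ⟨1, by decide +kernel⟩, 0, 4, 3, 6, by decide, by decide, by decide, by decide, by decide,
    by decide, by decide +kernel⟩

theorem fac7 : Fac 7 where
  ex := ⟨a7, b7, by rw [Perm.mem_alternatingGroup]; decide +kernel, by rw [Perm.mem_alternatingGroup]; decide +kernel,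
    ⟨1, by decide +kernel⟩, ⟨1, by decide +kernel⟩, by decide +kernel⟩
  dt := fun _ => ⟨c7, d7, by rw [Perm.mem_alternatingGroup]; decide +kernel, by rw [Perm.mem_alternatingGroup]; decide +kernel,
    ⟨1, by decide +kernel⟩, ⟨1, by decide +kernel⟩, 4, 5, 6, 8, by decide, by decide, by decide, by decide, by decide,
    by decide, by decide +kernel⟩

theorem fac11 : Fac 11 where
  ex := ⟨s, 1, mem_s, one_mem _, ⟨1, by decide +kernel⟩, ⟨0, by simp⟩, mul_one _⟩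
  dt := fun _ => ⟨s, d11, mem_s, by rw [Perm.mem_alternatingGroup]; decide +kernel,
    ⟨1, by decide +kernel⟩, ⟨1, by decide +kernel⟩, 6, 8, 7, 9, by decide, by decide, by decide, by decide, by decide,
    by decide, by decide +kernel⟩

end Elt

open Elt

section

variable {G : Type u} [Group G] (L : MT 11 G)

/-- `p`-elements of `A₁₁` lift to `p`-elements -/
theorem exists_lift {p : ℕ} (hp : p.Prime) {σ : Perm (Fin 11)} (hσ : σ ∈ alternatingGroup (Fin 11)) (h : IsPE p σ) :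
    ∃ y : centralizer ({L.t} : Set G), L.K.π y = σ ∧ IsPE p y := by
  obtain ⟨k, hk⟩ := h
  rcases eq_or_ne p 2 with rfl | hp2
  · obtain ⟨y, rfl⟩ := L.K.exists_lift hσ
    refine ⟨y, rfl, k + 1, ?_⟩
    rw [← map_pow] at hk
    rw [pow_succ 2 k, pow_mul]
    rcases (L.K.ker _).1 hk with h1 | h1
    · rw [h1, one_pow]
    · rw [h1, L.K.z_pow_two]
  · obtain ⟨y, hy, hy'⟩ := L.K.exists_odd_lift hσ ((hp.odd_of_ne_two hp2).pow (n := k)) hk
    exact ⟨y, hy, k, hy'⟩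

theorem pe_z {p : ℕ} (hp : p.Prime) (F : Fac p) : PE p 4 L.K.z := by
  rcases eq_or_ne p 2 with rfl | hp2
  · exact (IsPE.of_prime L.K.orderOf_z).pe.mono (by norm_num)
  · obtain ⟨a, b, ha, hb, hap, hbp, i, j, k, l, h1, h2, h3, h4, h5, h6, hab⟩ := F.dt hp2
    obtain ⟨x, hx, hxp⟩ := exists_lift L hp ha hap
    obtain ⟨y, hy, hyp⟩ := exists_lift L hp hb hbp
    have h7 : L.K.π (x * y) = swap i j * swap k l := by rw [map_mul, hx, hy, hab]
    have h8 := L.K.dbl i j k l h1 h2 h3 h4 h5 h6 _ h7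
    rw [← h8]
    exact (hxp.pe.mul hyp.pe).mul (hxp.pe.mul hyp.pe)

include L in
/-- an element with centralizer of order at most 22 which is a product of six `p`-elements -/
theorem exists_elt [Finite G] {p : ℕ} (hp : p.Prime) (F : Fac p) :
    ∃ m : G, Nat.card (centralizer ({m} : Set G)) ≤ 22 ∧ PE p 6 m := by
  obtain ⟨y, hy, hyp⟩ := L.K.exists_odd_lift mem_s (n := 11) (by decide) (orderOf_dvd_iff_pow_eq_one.1 ord_s.dvd)
  refine ⟨((L.K.z * y : centralizer ({L.t} : Set G)) : G), ?_, ?_⟩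
  · have e : ((L.K.z * y : centralizer ({L.t} : Set G)) : G) = L.t * y := by rw [Subgroup.coe_mul, L.hz]
    rw [e]
    refine (H253.TC.card_cent_mul_le L.t_mul_t (mem_centralizer_singleton_iff.1 y.2) (r := 11) (by decide)
      (congrArg Subtype.val hyp)).trans ?_
    refine (H253.TC.card_cent_ext_le' L.K.π _ (a := 2) (b := 11) ?_ ?_).trans (by norm_num)
    · have h1 : (L.K.π.ker : Set (centralizer ({L.t} : Set G))) ⊆ {1, L.K.z} := fun x hx => (L.K.ker x).1 hx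
      calc Nat.card L.K.π.ker = (L.K.π.ker : Set (centralizer ({L.t} : Set G))).ncard := rfl
        _ ≤ ({1, L.K.z} : Set (centralizer ({L.t} : Set G))).ncard := Set.ncard_le_ncard h1 (Set.toFinite _)
        _ ≤ ({L.K.z} : Set (centralizer ({L.t} : Set G))).ncard + 1 := Set.ncard_insert_le _ _
        _ = 2 := by rw [Set.ncard_singleton]
    · have h1 : L.K.π (⟨(y : G), mem_centralizer_singleton_iff.2 (mem_centralizer_singleton_iff.1 y.2)⟩ :
        centralizer ({L.t} : Set G)) = s := hy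
      rw [h1, H253.TC.card_cent_perm (p := 11) (by norm_num) (by norm_num) ord_s]
      norm_num
  · have h1 : PE p 6 (L.K.z * y) := by
      obtain ⟨a, b, ha, hb, hap, hbp, hab⟩ := F.ex
      obtain ⟨x, hx, hxp⟩ := exists_lift L hp ha hap
      obtain ⟨w, hw, hwp⟩ := exists_lift L hp hb hbp
      have h2 : L.K.π (x * w) = L.K.π y := by rw [map_mul, hx, hw, hab, hy]
      have h3 := hxp.pe.mul hwp.pe
      rcases L.K.lift_eq h2 with h4 | h4
      · rw [← h4]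
        exact (pe_z L hp F).mul h3
      · rw [h4] at h3
        rw [← L.K.z_comm]
        exact h3.mono (by norm_num)
    exact h1.map (centralizer ({L.t} : Set G)).subtype

include L in
/-- the primes `2, 3, 5, 7, 11` -/
theorem pw_mt [Finite G] [IsSimpleGroup G] (hna : ¬ ∀ a b : G, a * b = b * a) {p D : ℕ} (hp : p.Prime) (F : Fac p)
    (hD : MinDeg G D) (hD22 : 34 ≤ D) : PW p 70 G := by
  obtain ⟨m, hm, hmp⟩ := exists_elt L hp F
  refine pw_of_pe hna hmp hD hm (k := 5) (by norm_num) ?_ (by norm_num)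
  calc (22 - 1) ^ 5 < 34 ^ (2 * 5 - 4) := by norm_num
    _ ≤ D ^ (2 * 5 - 4) := Nat.pow_le_pow_left hD22 _

end

end Cfsg.Agent.H621.PW
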