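import Cfsg.Agent.H621.PW.Ly
import Cfsg.Agent.OrdDiv.Table
import Cfsg.Agent.S0000

/-!
# The Lyons group, with the classification (S2454, helper621)
-/

set_option autoImplicit false

namespace Cfsg.Agent.H621.PW

open Cfsg Cfsg.Agent.H514.DP

theorem Ly.base : H940.Eng.Base where
  table := OrdDiv.table
  known := fun S _ _ h => by
    haveI := h
    exact Cfsg.Agent.S0000.result

/-- every element of the Lyons group is a product of 70 `p`-elements -/
theorem pw_ly {S : Type*} [Group S] [Finite S] [IsSimpleGroup S] (h : Spor.IsoLy S) {p : ℕ} (hp : p.Prime)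
    (hd : p ∣ Nat.card S) : PW p 70 S :=
  pw_ly_of Ly.base h hp hd

end Cfsg.Agent.H621.PW
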